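import Cfsg.Agent.PronormalPSL.Basic
import Cfsg.Agent.FusionPSL.Upper
import Cfsg.Agent.UnipGL.Orbits

/-!
In characteristic two every subgroup of odd index of `SL_n(q)` is pronormal: an overgroup of the
unitriangular group is normalised by the diagonal matrices.
-/

set_option autoImplicit false
set_option linter.style.haveILetI false
set_option linter.unusedSectionVars false

namespace Cfsg.Agent.PronormalPSL

open Matrix
open Cfsg.Agent.FusionPSL (utri)

variable {n : ℕ} {F : Type*} [Field F] [Fintype F]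

local notation "B" => Cfsg.upperTriangularGL n F

theorem diag_mul_of_upper {g h : Matrix (Fin n) (Fin n) F} (hg : g.BlockTriangular id)
    (hh : h.BlockTriangular id) (i : Fin n) : (g * h) i i = g i i * h i i := by
  rw [Matrix.mul_apply, Finset.sum_eq_single i]
  · intro k _ hk
    rcases lt_or_gt_of_ne hk with hlt | hlt
    · rw [hg (show id k < id i from hlt), zero_mul]
    · rw [hh (show id i < id k from hlt), mul_zero]
  · intro h; exact absurd (Finset.mem_univ i) h

/-- The diagonal of an upper triangular matrix. -/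
def diagHom : (Cfsg.upperTriangularGL n F) →* (Fin n → F) where
  toFun g := fun i => ((g : GL (Fin n) F) : Matrix (Fin n) (Fin n) F) i i
  map_one' := funext fun i => by simp
  map_mul' g h := funext fun i => diag_mul_of_upper g.2 h.2 i

/-- The diagonal matrix. -/
noncomputable def diagGL (v : Fin n → F) (hv : ∀ i, v i ≠ 0) : GL (Fin n) F :=
  GeneralLinearGroup.mkOfDetNeZero (diagonal v) (by
    rw [det_diagonal]; exact Finset.prod_ne_zero_iff.2 fun i _ => hv i)

theorem diagGL_val (v : Fin n → F) (hv : ∀ i, v i ≠ 0) :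
    ((diagGL v hv : GL (Fin n) F) : Matrix (Fin n) (Fin n) F) = diagonal v := rfl

theorem diagGL_mem (v : Fin n → F) (hv : ∀ i, v i ≠ 0) : diagGL v hv ∈ B :=
  fun _ _ hij => diagonal_apply_ne _ (ne_of_gt hij)

theorem diagGL_mul_permGL (v : Fin n → F) (hv : ∀ i, v i ≠ 0) (w : Equiv.Perm (Fin n)) :
    diagGL v hv * UnipGL.permGL w = UnipGL.permGL w * diagGL (v ∘ w) (fun i => hv (w i)) := by
  refine Units.ext (Matrix.ext fun i j => ?_)
  rw [Units.val_mul, Units.val_mul, diagGL_val, diagGL_val, diagonal_mul, mul_diagonal,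
    UnipGL.permGL_apply]
  split_ifs with h <;> simp [h]

/-- The image of the unitriangular group. -/
def utriGL : Subgroup (GL (Fin n) F) :=
  (utri : Subgroup (SpecialLinearGroup (Fin n) F)).map SpecialLinearGroup.toGL

theorem mem_utriGL {g : GL (Fin n) F} :
    g ∈ (utriGL : Subgroup (GL (Fin n) F)) ↔ ∃ h : g ∈ B, diagHom ⟨g, h⟩ = 1 := by
  constructor
  · rintro ⟨u, hu, rfl⟩
    refine ⟨fun i j hij => (hu i j (le_of_lt hij)).trans (Matrix.one_apply_ne (ne_of_gt hij)), ?_⟩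
    exact funext fun i => (hu i i le_rfl).trans (Matrix.one_apply_eq i)
  · rintro ⟨h, h1⟩
    have hd : ∀ i, ((g : GL (Fin n) F) : Matrix (Fin n) (Fin n) F) i i = 1 := fun i => congrFun h1 i
    refine ⟨⟨g, ?_⟩, fun i j hji => ?_, Units.ext rfl⟩
    · rw [Matrix.det_of_isUpperTriangular h]
      exact Finset.prod_eq_one fun i _ => hd i
    · show ((g : GL (Fin n) F) : Matrix (Fin n) (Fin n) F) i j = _
      rcases eq_or_lt_of_le hji with e | e
      · subst e; rw [hd, Matrix.one_apply_eq]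
      · rw [h e, Matrix.one_apply_ne (ne_of_gt e)]

theorem conj_mem_utriGL {b u : GL (Fin n) F} (hb : b ∈ B)
    (hu : u ∈ (utriGL : Subgroup (GL (Fin n) F))) : b * u * b⁻¹ ∈ (utriGL : Subgroup (GL (Fin n) F)) := by
  obtain ⟨hu', h1⟩ := mem_utriGL.1 hu
  refine mem_utriGL.2 ⟨mul_mem (mul_mem hb hu') (inv_mem hb), ?_⟩
  show diagHom (⟨b, hb⟩ * ⟨u, hu'⟩ * (⟨b, hb⟩ : Cfsg.upperTriangularGL n F)⁻¹) = 1
  rw [map_mul, map_mul, h1, mul_one, ← map_mul, mul_inv_cancel, map_one]

theorem comm_mem_utriGL {b c : GL (Fin n) F} (hb : b ∈ B) (hc : c ∈ B) :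
    b * c * b⁻¹ * c⁻¹ ∈ (utriGL : Subgroup (GL (Fin n) F)) := by
  refine mem_utriGL.2 ⟨mul_mem (mul_mem (mul_mem hb hc) (inv_mem hb)) (inv_mem hc), ?_⟩
  show diagHom (⟨b, hb⟩ * ⟨c, hc⟩ * (⟨b, hb⟩ : Cfsg.upperTriangularGL n F)⁻¹ * ⟨c, hc⟩⁻¹) = 1
  rw [map_mul, map_mul, map_mul, mul_right_comm (diagHom _) (diagHom _) (diagHom (⟨b, hb⟩⁻¹)),
    ← map_mul, ← map_mul, ← map_mul, mul_inv_cancel, one_mul, mul_inv_cancel, map_one]

/-- An overgroup of the unitriangular group is normalised by its normalizer. -/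
theorem normalizer_utri_le [CharP F 2] {H : Subgroup (SpecialLinearGroup (Fin n) F)}
    (hUH : (utri : Subgroup (SpecialLinearGroup (Fin n) F)) ≤ H) :
    Subgroup.normalizer ((utri : Subgroup (SpecialLinearGroup (Fin n) F)) : Set (SpecialLinearGroup (Fin n) F)) ≤
      Subgroup.normalizer (H : Set (SpecialLinearGroup (Fin n) F)) := by
  haveI : Fact (Nat.Prime 2) := ⟨Nat.prime_two⟩
  let ι : SpecialLinearGroup (Fin n) F →* GL (Fin n) F := SpecialLinearGroup.toGL
  have hι : Function.Injective ι := SpecialLinearGroup.toGL_injective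
  let H' := H.map ι
  have hUH' : (utriGL : Subgroup (GL (Fin n) F)) ≤ H' := Subgroup.map_mono hUH
  let S : Sylow 2 (SpecialLinearGroup (Fin n) F) :=
    ⟨utri, FusionPSL.isPGroup_utri 2, fun hQ hle => le_antisymm (FusionPSL.utri_maximal 2 hQ hle) hle⟩
  have hup : ∀ g : SpecialLinearGroup (Fin n) F,
      g ∈ Subgroup.normalizer ((utri : Subgroup (SpecialLinearGroup (Fin n) F)) : Set (SpecialLinearGroup (Fin n) F)) → ι g ∈ B :=
    fun g hg i j hij => FusionPSL.upperTriangular_of_normalizes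
      (fun u hu => (Subgroup.mem_normalizer_iff.1 hg u).1 hu) i j hij
  let K : Subgroup (SpecialLinearGroup (Fin n) F) :=
    Subgroup.closure {x | ∃ h ∈ H, ∃ u ∈ (utri : Subgroup (SpecialLinearGroup (Fin n) F)), x = h * u * h⁻¹}
  -- a diagonal matrix normalises `H'`
  have hdiag : ∀ v : Fin n → F, ∀ hv : (∀ i, v i ≠ 0), ∀ h ∈ H',
      diagGL v hv * h * (diagGL v hv)⁻¹ ∈ H' := by
    intro v hv
    set t := diagGL v hv with ht
    have hK : ∀ x ∈ K, t * ι x * t⁻¹ ∈ H' := by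
      intro x hx
      induction hx using Subgroup.closure_induction with
      | mem x hx =>
        obtain ⟨h, hh, u, hu, rfl⟩ := hx
        obtain ⟨b₁, hb₁, b₂, hb₂, w, hw⟩ := UnipGL.bruhat (ι h)
        set d := diagGL (v ∘ w) (fun i => hv (w i)) with hd
        have htw : t * UnipGL.permGL w = UnipGL.permGL w * d := diagGL_mul_permGL v hv w
        set c := t * b₁ * t⁻¹ * b₁⁻¹ with hc
        have hc' : c ∈ H' := hUH' (comm_mem_utriGL (diagGL_mem v hv) hb₁)
        set u₀ := b₂⁻¹ * (d * (b₂ * ι u * b₂⁻¹) * d⁻¹) * b₂⁻¹⁻¹ with hu₀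
        have hu₀' : u₀ ∈ H' := hUH' (conj_mem_utriGL (inv_mem hb₂) (conj_mem_utriGL (diagGL_mem _ _)
          (conj_mem_utriGL hb₂ (Subgroup.mem_map_of_mem ι hu))))
        have hh' : ι h ∈ H' := Subgroup.mem_map_of_mem ι hh
        have e : t * ι (h * u * h⁻¹) * t⁻¹ = c * (ι h * u₀ * (ι h)⁻¹) * c⁻¹ := by
          have e1 : t * ι h = c * ι h * b₂⁻¹ * d * b₂ := by
            rw [hc, hw, show t * b₁ * t⁻¹ * b₁⁻¹ * (b₁ * UnipGL.permGL w * b₂) * b₂⁻¹ * d * b₂ =
              t * b₁ * (t⁻¹ * (UnipGL.permGL w * d)) * b₂ by group, ← htw]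
            group
          calc t * ι (h * u * h⁻¹) * t⁻¹ = (t * ι h) * ι u * (t * ι h)⁻¹ := by
                rw [map_mul, map_mul, map_inv]; group
            _ = _ := by rw [e1, hu₀]; group
        rw [e]
        exact mul_mem (mul_mem hc' (mul_mem (mul_mem hh' hu₀') (inv_mem hh'))) (inv_mem hc')
      | one => simp
      | mul x y _ _ hx hy => simpa [mul_assoc] using mul_mem hx hy
      | inv x _ hx => simpa [mul_assoc] using inv_mem hx
    rintro _ ⟨h, hh, rfl⟩
    have hUK : ∀ u ∈ (utri : Subgroup (SpecialLinearGroup (Fin n) F)), u ∈ K := fun u hu =>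
      Subgroup.subset_closure ⟨1, one_mem H, u, hu, by simp⟩
    obtain ⟨k, hk, hkS⟩ := Known.exists_mem_smul_sylow_eq S h K hUK (by
      rw [Sylow.coe_subgroup_smul]
      rintro _ ⟨u, hu, rfl⟩
      exact Subgroup.subset_closure ⟨h, hh, u, hu, rfl⟩)
    have hn : k⁻¹ * h ∈ Subgroup.normalizer ((utri : Subgroup (SpecialLinearGroup (Fin n) F)) : Set (SpecialLinearGroup (Fin n) F)) :=
      (Sylow.smul_eq_iff_mem_normalizer (P := S)).mp (by rw [mul_smul, ← hkS, inv_smul_smul])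
    have hb := hup _ hn
    have hKH : K ≤ H := (Subgroup.closure_le H).2 (by
      rintro _ ⟨h', hh', u, hu, rfl⟩
      exact mul_mem (mul_mem hh' (hUH hu)) (inv_mem hh'))
    have hb' : ι (k⁻¹ * h) ∈ H' := Subgroup.mem_map_of_mem ι (mul_mem (inv_mem (hKH hk)) hh)
    have e : t * ι h * t⁻¹ = (t * ι k * t⁻¹) *
        ((t * ι (k⁻¹ * h) * t⁻¹ * (ι (k⁻¹ * h))⁻¹) * ι (k⁻¹ * h)) := by
      rw [map_mul, map_inv]; group
    show t * ι h * t⁻¹ ∈ H'
    rw [e]
    exact mul_mem (hK k hk) (mul_mem (hUH' (comm_mem_utriGL (diagGL_mem v hv) hb)) hb')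
  intro g hg
  have hb := hup g hg
  set v : Fin n → F := diagHom ⟨ι g, hb⟩ with hv
  have hv0 : ∀ i, v i ≠ 0 := fun i h0 => by
    have h := congrFun (map_mul diagHom ⟨ι g, hb⟩ (⟨ι g, hb⟩ : Cfsg.upperTriangularGL n F)⁻¹) i
    rw [mul_inv_cancel, map_one, Pi.mul_apply, ← hv, h0, zero_mul] at h
    exact one_ne_zero h
  set t := diagGL v hv0 with ht
  have hu : ι g * t⁻¹ ∈ (utriGL : Subgroup (GL (Fin n) F)) := by
    refine mem_utriGL.2 ⟨mul_mem hb (inv_mem (diagGL_mem v hv0)), ?_⟩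
    show diagHom (⟨ι g, hb⟩ * (⟨t, diagGL_mem v hv0⟩ : Cfsg.upperTriangularGL n F)⁻¹) = 1
    have e : diagHom (⟨t, diagGL_mem v hv0⟩ : Cfsg.upperTriangularGL n F) = diagHom ⟨ι g, hb⟩ :=
      funext fun i => by
        show (diagonal v : Matrix (Fin n) (Fin n) F) i i = v i
        rw [diagonal_apply_eq]
    rw [map_mul, ← e, ← map_mul, mul_inv_cancel, map_one]
  refine Subgroup.mem_normalizer_fintype fun h hh => ?_
  have h1 := hdiag v hv0 _ (Subgroup.mem_map_of_mem ι hh)
  have h2 := mul_mem (mul_mem (hUH' hu) h1) (inv_mem (hUH' hu))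
  rw [← ht, show ι g * t⁻¹ * (t * ι h * t⁻¹) * (ι g * t⁻¹)⁻¹ = ι (g * h * g⁻¹) by
    rw [map_mul, map_mul, map_inv]; group] at h2
  exact (Subgroup.mem_map_iff_mem hι).1 h2

/-- Subgroups of odd index of `SL_n(2^f)` are pronormal. -/
theorem isPronormal_even (hF : Even (Fintype.card F)) {H : Subgroup (SpecialLinearGroup (Fin n) F)}
    (hH : Odd H.index) : Cfsg.IsPronormal H := by
  haveI : Fact (Nat.Prime 2) := ⟨Nat.prime_two⟩
  haveI : CharP F 2 := by
    have hc : ringChar F = 2 := (FiniteField.even_card_iff_char_two).2 (Nat.even_iff.1 hF)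
    exact hc ▸ ringChar.charP F
  let S : Sylow 2 (SpecialLinearGroup (Fin n) F) :=
    ⟨utri, FusionPSL.isPGroup_utri 2, fun hQ hle => le_antisymm (FusionPSL.utri_maximal 2 hQ hle) hle⟩
  obtain ⟨P, hP⟩ := exists_sylow_le hH
  obtain ⟨a, ha⟩ := MulAction.exists_smul_eq (SpecialLinearGroup (Fin n) F) P S
  have hle : (S : Subgroup (SpecialLinearGroup (Fin n) F)) ≤ H.map (MulAut.conj a).toMonoidHom := by
    rw [← ha, Sylow.coe_subgroup_smul]
    exact Subgroup.map_mono hP
  exact isPronormal_of_map_conj H a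
    (isPronormal_of_normalizer_le_normalizer S _ hle (normalizer_utri_le hle))

end Cfsg.Agent.PronormalPSL
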